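import Cfsg.Agent.SmallControl.Group

/-!
A small subgroup inside a normal subgroup detecting coprime automorphisms on it.
-/

set_option autoImplicit false
set_option linter.style.haveILetI false

open scoped commutatorElement

namespace CfsgLib.SmallControl

open CfsgLib.PGroup

/-- A central small subgroup of a normal `M` lies in a small subgroup of `M`, normal in `P`, detecting coprime
automorphisms on `M`. -/
theorem exists_detecting_in {P : Type*} [Group P] [Finite P] {p : ℕ} [hp : Fact p.Prime] (hP : IsPGroup p P)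
    (M : Subgroup P) (hMn : M.Normal) {Z : Subgroup P} (hZc : Z ≤ Subgroup.center P) (hZ : Small p Z) (hZM : Z ≤ M) :
    ∃ A : Subgroup P, A.Normal ∧ Z ≤ A ∧ A ≤ M ∧ Small p A ∧
      ∀ α : MulAut P, (orderOf α).Coprime p → (∀ x ∈ M, α x ∈ M) → (∀ a ∈ A, α a = a) → ∀ x ∈ M, α x = x := by
  obtain ⟨H₀, hH⟩ := exists_critical (p := p) (hP.to_subgroup M) ⊤ fun _ => Subgroup.mem_top _
  haveI := hMn
  haveI hH₀n : H₀.Normal := ⟨fun x hx g => by simpa using hH.invariant (MulAut.conj g) (Subgroup.mem_top _) x hx⟩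
  obtain ⟨H, hHdef⟩ : ∃ H, H = H₀.map M.subtype := ⟨_, rfl⟩
  have hres : ∀ α : MulAut P, (∀ x ∈ M, α x ∈ M) → ∃ β : MulAut M, ∀ x : M, ((β x : M) : P) = α x := fun α hα => by
    refine ⟨MulEquiv.ofBijective (((α.toMonoidHom.comp M.subtype)).codRestrict M fun x => hα x x.2)
      (Finite.injective_iff_bijective.1 fun x y h => ?_), fun x => rfl⟩
    exact Subtype.ext (α.injective (congrArg Subtype.val h))
  have hHinv : ∀ α : MulAut P, (∀ x ∈ M, α x ∈ M) → ∀ x ∈ H, α x ∈ H := by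
    intro α hα x hx
    rw [hHdef] at hx ⊢
    obtain ⟨y, hy, rfl⟩ := hx
    obtain ⟨β, hβ⟩ := hres α hα
    exact ⟨β y, hH.invariant β (Subgroup.mem_top _) y hy, hβ y⟩
  have hpow : ∀ x ∈ H, x ^ p ∈ Subgroup.centralizer (H : Set P) := by
    intro x hx
    rw [hHdef] at hx ⊢
    obtain ⟨y, hy, rfl⟩ := hx
    refine Subgroup.mem_centralizer_iff.2 ?_
    rintro _ ⟨z, hz, rfl⟩
    rw [← map_pow, ← map_mul, ← map_mul, Subgroup.mem_centralizer_iff.1 (hH.pow_mem y hy) z hz]
  have hcl : ∀ x ∈ H, ∀ y ∈ H, ⁅x, y⁆ ∈ Subgroup.centralizer (H : Set P) := by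
    intro x hx y hy
    rw [hHdef] at hx hy ⊢
    obtain ⟨x, hx, rfl⟩ := hx
    obtain ⟨y, hy, rfl⟩ := hy
    refine Subgroup.mem_centralizer_iff.2 ?_
    rintro _ ⟨z, hz, rfl⟩
    rw [← map_commutatorElement, ← map_mul, ← map_mul, Subgroup.mem_centralizer_iff.1
      ((hH.commutator_le (Subgroup.commutator_mem_commutator hx (Subgroup.mem_top y))).2) z hz]
  have hHM : H ≤ M := hHdef ▸ Subgroup.map_subtype_le H₀
  set O := smallSubgroup H H hpow hcl le_rfl
  have hOinv : ∀ α : MulAut P, (∀ x ∈ M, α x ∈ M) → ∀ x ∈ O, α x ∈ O := fun α hα x hx =>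
    ⟨hHinv α hα x hx.1, by rw [← map_pow, hx.2, map_one]⟩
  haveI hOn : O.Normal := ⟨fun x hx g => by
    simpa using hOinv (MulAut.conj g) (fun y hy => hMn.conj_mem y hy g) x hx⟩
  have hcen : ∀ z ∈ M, z ∈ Subgroup.centralizer (H : Set P) → z ∈ H := by
    intro z hzM hz
    rw [hHdef] at hz ⊢
    exact ⟨⟨z, hzM⟩, hH.centralizer_le (Subgroup.mem_centralizer_iff.2 fun h hh => Subtype.ext
      (Subgroup.mem_centralizer_iff.1 hz h ⟨h, hh, rfl⟩)), rfl⟩
  have hZO : Z ≤ O := fun z hz => ⟨hcen z (hZM hz) (Subgroup.mem_centralizer_iff.2 fun h _ =>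
    Subgroup.mem_center_iff.1 (hZc hz) h), hZ.2 z hz⟩
  obtain ⟨A, ⟨hAn, hZA, hAO, hAab⟩, hmax⟩ := (Set.toFinite {A : Subgroup P | A.Normal ∧ Z ≤ A ∧ A ≤ O ∧
    ∀ a ∈ A, ∀ b ∈ A, a * b = b * a}).exists_maximal
    ⟨Z, ⟨fun z hz g => by rwa [Subgroup.mem_center_iff.1 (hZc hz) g, mul_inv_cancel_right]⟩, le_rfl, hZO, hZ.1⟩
  refine ⟨A, hAn, hZA, fun a ha => hHM (hAO ha).1, ⟨hAab, fun a ha => (hAO ha).2⟩, ?_⟩
  haveI := hAn
  set C := O ⊓ Subgroup.centralizer (A : Set P)
  have hCA : C ≤ A := by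
    by_contra hne
    have hlt : A < C := lt_of_le_not_ge
      (le_inf hAO fun a ha => Subgroup.mem_centralizer_iff.2 fun b hb => hAab b hb a ha) hne
    obtain ⟨x, hx, hxA, hxg⟩ := exists_mem_central_mod hP hlt
    refine hxA ((hmax ⟨⟨fun y hy g => ?_⟩, hZA.trans le_sup_left,
      sup_le hAO (Subgroup.zpowers_le.2 hx.1), ?_⟩ le_sup_left) (Subgroup.mem_sup_right (Subgroup.mem_zpowers x)))
    · have hle : A ⊔ Subgroup.zpowers x ≤ (A ⊔ Subgroup.zpowers x).comap (MulAut.conj g).toMonoidHom := by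
        refine sup_le (fun a ha => Subgroup.mem_sup_left (hAn.conj_mem a ha g)) (Subgroup.zpowers_le.2 ?_)
        show g * x * g⁻¹ ∈ A ⊔ Subgroup.zpowers x
        rw [show g * x * g⁻¹ = ⁅x, g⁆⁻¹ * x by rw [commutatorElement_def]; group]
        exact Subgroup.mul_mem_sup (A.inv_mem (hxg g)) (Subgroup.mem_zpowers x)
      exact hle hy
    · intro a ha b hb
      have h1 : A ⊔ Subgroup.zpowers x ≤ Subgroup.centralizer ((A ⊔ Subgroup.zpowers x : Subgroup P) : Set P) := by
        have hxc : ∀ c ∈ A, c * x = x * c := fun c hc => Subgroup.mem_centralizer_iff.1 hx.2 c hc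
        refine sup_le (fun c hc => ?_) (Subgroup.zpowers_le.2 ?_) <;>
          rw [Subgroup.mem_centralizer_iff] <;> intro d hd
        · have : A ⊔ Subgroup.zpowers x ≤ Subgroup.centralizer {c} :=
            sup_le (fun d hd => Subgroup.mem_centralizer_singleton_iff.2 (hAab d hd c hc))
              (Subgroup.zpowers_le.2 (Subgroup.mem_centralizer_singleton_iff.2 (hxc c hc).symm))
          exact Subgroup.mem_centralizer_singleton_iff.1 (this hd)
        · have : A ⊔ Subgroup.zpowers x ≤ Subgroup.centralizer {x} :=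
            sup_le (fun d hd => Subgroup.mem_centralizer_singleton_iff.2 (hxc d hd))
              (Subgroup.zpowers_le.2 (Subgroup.mem_centralizer_singleton_iff.2 rfl))
          exact Subgroup.mem_centralizer_singleton_iff.1 (this hd)
      exact (Subgroup.mem_centralizer_iff.1 (h1 ha) b hb).symm
  intro α hco hαM hfix
  have hfixO : ∀ x ∈ O, α x = x := by
    intro x hx
    refine apply_eq_of_diff_fixed hP hco (hfix _ (hCA ⟨O.mul_mem (O.inv_mem hx) (hOinv α hαM x hx),
      Subgroup.mem_centralizer_iff.2 fun a ha => ?_⟩))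
    have h1 := hfix _ (hAn.conj_mem a ha x)
    rw [map_mul, map_mul, map_inv, hfix a ha] at h1
    calc a * (x⁻¹ * α x) = x⁻¹ * (x * a * x⁻¹) * α x := by group
      _ = x⁻¹ * (α x * a * (α x)⁻¹) * α x := by rw [h1]
      _ = x⁻¹ * α x * a := by group
  intro x hxM
  obtain ⟨β, hβ⟩ := hres α hαM
  have hpow' : ∀ (n : ℕ) (y : M), (((β ^ n) y : M) : P) = (α ^ n) y := by
    intro n
    induction n with
    | zero => simp
    | succ n ih => intro y; rw [pow_succ', pow_succ', MulAut.mul_apply, MulAut.mul_apply, hβ, ih]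
  have hβco : (orderOf β).Coprime p := Nat.Coprime.coprime_dvd_left (orderOf_dvd_of_pow_eq_one
    (MulEquiv.ext fun y => Subtype.ext (by rw [hpow', pow_orderOf_eq_one]; rfl))) hco
  have h1 : β = 1 := eq_one_of_fixes_selfCentralizing (hP.to_subgroup M) hH.centralizer_le hβco fun y hy => Subtype.ext
    ((hβ y).trans (fixes_of_fixes_small hP hpow hcl le_rfl hco (fun z hz => hHinv α hαM z hz)
      (fun z hz hz' => hfixO z ⟨hz, hz'⟩) y (by rw [hHdef]; exact ⟨y, hy, rfl⟩)))
  exact (hβ ⟨x, hxM⟩).symm.trans (congrArg Subtype.val (DFunLike.congr_fun h1 ⟨x, hxM⟩))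

end CfsgLib.SmallControl
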