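import Cfsg.Agent.SmallControl.Main
import Cfsg.Agent.SmallControl.GroupIn

/-!
Saturated systems agreeing on small abelian subgroups of a subgroup containing the hyperfocal subgroup are equal.
-/

set_option autoImplicit false
set_option linter.style.haveILetI false

open Cfsg

namespace CfsgLib.SmallControlRel

open Cfsg.FusionSystem CfsgLib.Fusion CfsgLib.PGroup CfsgLib.SmallControl

variable {Ω : Type*} [Group Ω] {S : Subgroup Ω} [Finite S] {p : ℕ} [hp : Fact p.Prime]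
  {E F : Cfsg.FusionSystem S} {H : Subgroup Ω}

/-- The standing hypotheses. -/
structure RelData (p : ℕ) (E F : Cfsg.FusionSystem S) (H : Subgroup Ω) : Prop where
  hS : IsPGroup p S
  hE : E.IsSaturated p
  hF : F.IsSaturated p
  le : E ≤ F
  hH : F.StronglyClosed H
  hyp : F.hyperfocalSubgroup p ≤ H
  same : ∀ A : Subgroup Ω, A ≤ H → Small p A → F.Hom A ⊆ E.Hom A

omit [Finite S] hp in
lemma RelData.image_le (d : RelData p E F H) {A A' : Subgroup Ω} (hA : A ≤ H) {e : A ≃* A'} (he : IsoIn F e) :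
    A' ≤ H := fun y hy => by
  obtain ⟨a, ha⟩ := e.surjective ⟨y, hy⟩
  have h1 : ((e a : A') : Ω) ∈ H := d.hH.2 A hA _ he a
  rwa [ha] at h1

omit [Finite S] hp in
lemma RelData.autGroup_eq (d : RelData p E F H) {A : Subgroup Ω} (hA : A ≤ H) (h : Small p A) :
    F.autGroup A = E.autGroup A :=
  le_antisymm (fun _ hα => (mem_autGroup (hA.trans d.hH.1)).2 (d.same A hA h ((mem_autGroup (hA.trans d.hH.1)).1 hα)))
    fun _ hα => (mem_autGroup (hA.trans d.hH.1)).2 (d.le A ((mem_autGroup (hA.trans d.hH.1)).1 hα))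

lemma RelData.fullK (d : RelData p E F H) {A : Subgroup Ω} (hAH : A ≤ H) (h : Small p A) {K : Subgroup (MulAut A)}
    (hK : FullK p F K) : FullK p E K := by
  refine ⟨receptive_of_fullyCentralized d.hS d.hE ⟨hK.1.1, fun Q hQ => ?_⟩, ?_⟩
  · obtain ⟨φ, hφ, hr⟩ := hQ
    exact card_centralizerIn_le_of_receptive hK.1 (CfsgLib.Fusion.IsConj.symm (F := F) ⟨φ, d.le _ hφ, hr⟩)
  · rw [← d.autGroup_eq hAH h]; exact hK.2

omit hp in
/-- The coprime automorphisms of `R` move elements inside `H`. -/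
lemma RelData.diff_mem (d : RelData p E F H) {R : Subgroup Ω} (hR : R ≤ S) {g : MulAut R} (hg : g ∈ F.autGroup R)
    (hco : (orderOf g).Coprime p) (x : R) : (x : Ω)⁻¹ * ((g x : R) : Ω) ∈ H := by
  refine d.hyp (Subgroup.subset_closure ⟨R, ⟨g, hg⟩, x, hR, Subgroup.subset_closure ?_, rfl⟩)
  show Nat.Coprime (orderOf (⟨g, hg⟩ : F.autGroup R)) p
  rw [← Subgroup.orderOf_coe]
  exact hco

/-- Reduction of a map fixing `A` to a `K`-normalizer system. -/
theorem RelData.reduce (d : RelData p E F H) {A : Subgroup Ω} (hA : A ≤ S) (hAH : A ≤ H) (h : Small p A) {K : Subgroup (MulAut A)}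
    (hKp : IsPGroup p K)
    (hsys : ∀ (A' : Subgroup Ω) (hA' : A' ≤ S) (e : A ≃* A'), A' ≤ H → Small p A' → IsoIn F e →
      FullK p F (K.map (MulAut.congr e).toMonoidHom) →
      kSystem F hA' (K.map (MulAut.congr e).toMonoidHom) ≤ kSystem E hA' (K.map (MulAut.congr e).toMonoidHom))
    {P : Subgroup Ω} {φ : P →* Ω} (hφ : φ ∈ F.Hom P) (hAP : A ≤ P)
    (hfix : ∀ x : P, (x : Ω) ∈ A → φ x = x) (hPK : ∀ x ∈ P, ∃ κ ∈ K, ∀ a : A, ((κ a : A) : Ω) = x * a * x⁻¹) :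
    φ ∈ E.Hom P := by
  obtain ⟨A', e, he, hfull⟩ := exists_FullK p d.hS d.hF hA K
  have hA' : A' ≤ S := he.le_right
  have hs' : Small p A' := small_of_iso h e
  set K' := K.map (MulAut.congr e).toMonoidHom with hK'
  have hA'H : A' ≤ H := d.image_le hAH he
  have hsys' := hsys A' hA' e hA'H hs' he hfull
  haveI := finite_mulAut hA
  set X := (autInducedBy S A ⊓ K).map (MulAut.congr e).toMonoidHom
  have hXA : X ≤ F.autGroup A' ⊓ K' := by
    rintro _ ⟨α, ⟨hαS, hαK⟩, rfl⟩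
    exact ⟨he.congr_mem (autInducedBy_le_autGroup hA hαS), α, hαK, rfl⟩
  obtain ⟨θ, ⟨hθF, hθK⟩, hθX⟩ := exists_conj_le_of_FullK p d.hS hfull X
    ((hKp.to_le inf_le_right).map _) hXA
  set e2 := e.trans θ with he2def
  have he2F : IsoIn F e2 := he.trans (isoIn_aut hA' hθF)
  have he2 : IsoIn E e2 := d.same A hAH h he2F
  obtain ⟨ψ, hψ, hψag⟩ := (d.fullK hA'H hs' hfull).1.2 A _ he2 (IsoIn.range_eq e2)
  let D := extender S A (A'.subtype.comp e2.toMonoidHom)
  have hDS : D ≤ S := le_of_hom hψ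
  have hφfix : ∀ (x : P) (a : A), φ x * (a : Ω) * (φ x)⁻¹ = (x : Ω) * a * (x : Ω)⁻¹ := by
    intro x a
    obtain ⟨κ, -, hκ⟩ := hPK x x.2
    have h1 := hfix ⟨_, hAP (κ a).2⟩ (κ a).2
    have e3 : (⟨((κ a : A) : Ω), hAP (κ a).2⟩ : P) = x * ⟨a, hAP a.2⟩ * x⁻¹ := Subtype.ext (hκ a)
    rw [e3, map_mul, map_mul, map_inv, hfix ⟨a, hAP a.2⟩ a.2] at h1
    exact h1
  have hK2 : ∀ z : Ω, z ∈ S → (∃ κ ∈ K, ∀ a : A, ((κ a : A) : Ω) = z * a * z⁻¹) →
      ∃ hz : z ∈ D, ψ ⟨z, hz⟩ ∈ NK S K' := by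
    rintro z hzS ⟨κ, hκ, hκz⟩
    have hκX : MulAut.congr e κ ∈ X := ⟨κ, ⟨mem_autInducedBy.2 ⟨z, hzS, hκz⟩, hκ⟩, rfl⟩
    obtain ⟨h1, h2⟩ := hθX _ hκX
    obtain ⟨t, ht, htt⟩ := mem_autInducedBy.1 h1
    have hev : ∀ a : A, (θ * MulAut.congr e κ * θ⁻¹) (e2 a) = e2 (κ a) := fun a => by
      show θ (e (κ (e.symm (θ⁻¹ (θ (e a)))))) = θ (e (κ a))
      rw [MulAut.inv_apply_self, MulEquiv.symm_apply_apply]
    have hzD : z ∈ D := mem_extender.2 ⟨hzS, mem_normalizer_of_conj hκz, t, ht, fun a hx => by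
      have := htt (e2 a)
      rw [hev] at this
      show ((e2 ⟨_, hx⟩ : A') : Ω) = _
      rw [show (⟨z * a * z⁻¹, hx⟩ : A) = κ a from Subtype.ext (hκz a).symm]
      exact this⟩
    refine ⟨hzD, mem_NK.2 ⟨val_mem hψ _, _, h2, fun a' => ?_⟩⟩
    obtain ⟨a, rfl⟩ := e2.surjective a'
    rw [hev]
    have h3 := conj_map (φ := A'.subtype.comp e2.toMonoidHom) (le_extender he2)
      (fun y => hψag y y.2 _) hzD a (by rw [← hκz]; exact (κ a).2)
    rw [show (⟨z * a * z⁻¹, _⟩ : A) = κ a from Subtype.ext (hκz a).symm] at h3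
    exact h3
  have hPS : P ≤ S := le_of_hom hφ
  have hPD : P ≤ D := fun x hx => (hK2 x (hPS hx) (hPK x hx)).1
  have hφK : ∀ x : P, ∃ κ ∈ K, ∀ a : A, ((κ a : A) : Ω) = φ x * a * (φ x)⁻¹ := fun x => by
    obtain ⟨κ, hκ, hκx⟩ := hPK x x.2
    exact ⟨κ, hκ, fun a => by rw [hκx, hφfix]⟩
  have hφD : φ.range ≤ D := by
    rintro _ ⟨x, rfl⟩; exact (hK2 _ (val_mem hφ x) (hφK x)).1
  set e0 := isoOfHom (F.injective_of_mem hφ) (rfl : φ.range = φ.range)
  have he0 : IsoIn F e0 := isoIn_isoOfHom hφ rfl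
  set ψP := ψ.comp (Subgroup.inclusion hPD)
  set ψQ := ψ.comp (Subgroup.inclusion hφD)
  have hψP : ψP ∈ E.Hom P := restrict hψ hPD
  have hψQ : ψQ ∈ E.Hom φ.range := restrict hψ hφD
  set eP := isoOfHom (E.injective_of_mem hψP) (rfl : ψP.range = ψP.range)
  set eQ := isoOfHom (E.injective_of_mem hψQ) (rfl : ψQ.range = ψQ.range)
  have heP : IsoIn E eP := isoIn_isoOfHom hψP rfl
  have heQ : IsoIn E eQ := isoIn_isoOfHom hψQ rfl
  set f := eP.symm.trans (e0.trans eQ) with hf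
  have hfF : IsoIn F f := (IsoIn.symm (d.le _ heP)).trans (he0.trans (d.le _ heQ))
  have hA'P : A' ≤ ψP.range := fun y hy => by
    obtain ⟨a, ha⟩ := e2.surjective ⟨y, hy⟩
    exact ⟨⟨a, hAP a.2⟩, (hψag a a.2 _).trans (congrArg Subtype.val ha)⟩
  have hsup : ψP.range ⊔ A' ≤ ψP.range := sup_le le_rfl hA'P
  have hmemF : (ψQ.range.subtype.comp f.toMonoidHom) ∈ (kSystem F hA' K').Hom ψP.range := by
    refine ⟨?_, fun y => ?_, (ψQ.range.subtype.comp f.toMonoidHom).comp (Subgroup.inclusion hsup),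
      restrict hfF hsup, fun y => rfl, 1, one_mem _, fun q => ?_⟩
    · rintro _ ⟨x, rfl⟩
      exact (hK2 x (hPS x.2) (hPK x x.2)).2
    · obtain ⟨x, rfl⟩ := eP.surjective y
      show ((f (eP x) : ψQ.range) : Ω) ∈ _
      rw [hf, MulEquiv.trans_apply, MulEquiv.symm_apply_apply]
      exact (hK2 _ (val_mem hφ x) (hφK x)).2
    · obtain ⟨a, rfl⟩ := e2.surjective q
      have hx : eP ⟨a, hAP a.2⟩ = Subgroup.inclusion hsup (Subgroup.inclusion le_sup_right (e2 a)) :=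
        Subtype.ext (hψag a a.2 _)
      show ((f (Subgroup.inclusion hsup _) : ψQ.range) : Ω) = _
      rw [← hx, hf, MulEquiv.trans_apply, MulEquiv.symm_apply_apply]
      show ψ ⟨φ ⟨a, _⟩, _⟩ = _
      refine Eq.trans ?_ (hψag a a.2 (le_extender he2 a.2))
      congr 1
      exact Subtype.ext (hfix _ a.2)
  obtain ⟨-, -, σ, hσ, hσf, -⟩ := hsys' _ hmemF
  have hfE : IsoIn E f := restrict_of_eq hσ le_sup_left fun y => (hσf y).symm
  refine mem_of_eq (heP.trans (hfE.trans heQ.symm)) fun x => ?_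
  show φ x = ((eQ.symm (f (eP x)) : φ.range) : Ω)
  rw [hf, MulEquiv.trans_apply, MulEquiv.symm_apply_apply, MulEquiv.trans_apply, MulEquiv.symm_apply_apply]
  exact (isoOfHom_apply _ _ _).symm

/-- The `K`-systems agree once the centralizer systems do. -/
theorem RelData.kSystem_le (d : RelData p E F H) {A : Subgroup Ω} {K : Subgroup (MulAut A)} (hA : A ≤ S) (hAH : A ≤ H) (h : Small p A) (hKp : IsPGroup p K) (hfull : FullK p F K)
    (hcl : Claim E F A) : kSystem F hA K ≤ kSystem E hA K := by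
  have hNS : NK S K ≤ S := (NK_le_normalizerIn K).trans inf_le_left
  haveI : Finite (NK S K) := finite_of_le hNS
  have hM : IsPGroup p (NK S K) := d.hS.to_le hNS
  have hFk := isSaturated_of_isKSystem p d.hS d.hF hfull rfl _ (isKSystem_kSystem F hA K)
  have hEk := isSaturated_of_isKSystem p d.hS d.hE (d.fullK hAH h hfull) rfl _ (isKSystem_kSystem E hA K)
  have hle := kSystem_mono (K := K) d.le hA
  set Fk := kSystem F hA K
  set Ek := kSystem E hA K
  refine le_of_centricRadical hM hFk Ek fun R hn hc hrad => ?_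
  have hRM : R ≤ NK S K := hc.1
  haveI := finite_of_le hRM
  haveI := finite_mulAut hRM
  -- `A ≤ R`
  have hAM : A ≤ NK S K := le_NK_centralizer hA h.1 K
  have hcenR : centralizerIn (NK S K) R ≤ R := hc.2 R (CfsgLib.Fusion.IsConj.refl hRM)
  have hAR : A ≤ R := by
    have hRN : R ≤ Subgroup.normalizer (A : Set Ω) := hRM.trans ((NK_le_normalizerIn K).trans inf_le_right)
    refine le_of_absorb hM hRM hAM hRN fun w hw hwN => ?_
    refine mem_of_stab (Y := R ⊓ A) hM hcenR hRM hrad.2.le inf_le_left (fun a ha y hy => ⟨(a y).2, ?_⟩)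
      (hAM hw) hwN (fun y hy => by rw [h.1 w hw y hy.2, mul_inv_cancel_right]) fun x hx => ⟨?_, ?_⟩
    · obtain ⟨-, -, ψ, -, hψ, κ, -, hψκ⟩ := (mem_autGroup hRM).1 ha
      have e1 : Subgroup.inclusion (le_sup_left : R ≤ R ⊔ A) y =
          Subgroup.inclusion (le_sup_right : A ≤ R ⊔ A) ⟨(y : Ω), hy.2⟩ := Subtype.ext rfl
      have := hψ y
      rw [e1, hψκ] at this
      show (R.subtype.comp (MulEquiv.toMonoidHom a)) y ∈ A
      rw [← this]
      exact SetLike.coe_mem _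
    · exact R.mul_mem (R.inv_mem hx) (conj_mem_of_normalizer hwN hx)
    · rw [show x⁻¹ * (w * x * w⁻¹) = x⁻¹ * w * x * w⁻¹ by group]
      exact A.mul_mem (conj_inv_mem_of_normalizer (hRN hx) hw) (A.inv_mem hw)
  set G := Fk.autGroup R
  set B := (Ek.autGroup R).subgroupOf G
  obtain ⟨-, T, hT⟩ := fullyAutomized_of_fullyNormalized hM hFk hn
  suffices hB : B = ⊤ by exact Subgroup.subgroupOf_eq_top.1 hB
  refine le_of_coprime T (hT.le.trans (Subgroup.comap_mono (autInducedBy_le_autGroup hRM))) ?_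
  rintro ⟨g, hg⟩ hco
  rw [Subgroup.orderOf_mk] at hco
  show g ∈ Ek.autGroup R
  have hgA := fixes_of_coprime hA hAR hRM hKp hg hco
  set Y := R ⊓ Subgroup.centralizer (A : Set Ω) with hY
  have hAY : A ≤ Y := le_inf hAR fun a ha => Subgroup.mem_centralizer_iff.2 fun b hb => h.1 b hb a ha
  have hYR : Y ≤ R := inf_le_left
  have hYC : Y ≤ centralizerIn S A := fun y hy => ⟨hNS (hRM hy.1), hy.2⟩
  have hgF : R.subtype.comp g.toMonoidHom ∈ F.Hom R := kSystem_hom hA ((mem_autGroup hRM).1 hg)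
  have hinvY : ∀ a ∈ Fk.autGroup R, ∀ y : R, (y : Ω) ∈ Y → ((a y : R) : Ω) ∈ Y := by
    intro a ha y hy
    obtain ⟨κ, -, hκ⟩ := kSystem_action hA hAR hRM ha
    refine ⟨(a y).2, Subgroup.mem_centralizer_iff.2 fun b hb => ?_⟩
    obtain ⟨b0, hb0⟩ := κ.surjective ⟨b, hb⟩
    have h1 : ((a (Subgroup.inclusion hAR b0) : R) : Ω) = b := by rw [hκ, hb0]
    have h2 : Subgroup.inclusion hAR b0 * y = y * Subgroup.inclusion hAR b0 :=
      Subtype.ext (Subgroup.mem_centralizer_iff.1 hy.2 b0 b0.2)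
    have h3 := congrArg (fun z : R => ((a z : R) : Ω)) h2
    simp only [map_mul, Subgroup.coe_mul, h1] at h3
    exact h3
  have hYn : R ≤ Subgroup.normalizer (Y : Set Ω) := by
    have key : ∀ r ∈ R, ∀ z ∈ Y, r * z * r⁻¹ ∈ Y := fun r hr z hz =>
      hinvY (conjAut R (NK S K) ⟨r, hRM hr, Subgroup.le_normalizer hr⟩)
        (autInducedBy_le_autGroup hRM (conjAut_mem _)) ⟨z, hz.1⟩ hz
    intro r hr
    refine Subgroup.mem_normalizer_iff.2 fun z => ⟨key r hr z, fun hz => ?_⟩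
    simpa [mul_assoc] using key r⁻¹ (R.inv_mem hr) _ hz
  have hgY : (R.subtype.comp g.toMonoidHom).comp (Subgroup.inclusion hYR) ∈ Ek.Hom Y :=
    kSystem_mem hA (hYR.trans hRM) (fun y => hRM (g _).2) hAY
      (hcl Y _ (restrict hgF hYR) hAY hYC fun y hy => hgA ⟨y, hy⟩) (one_mem K) fun a => hgA a
  obtain ⟨R1, R2, Y2, e1, e2, he1, he2, hY21, hN1, hN2, hconj, hφ0, hfix, hval⟩ :=
    exists_transport hM hEk hg hle hRM hYR hYn hgY
  have hR1M : R1 ≤ NK S K := he1.le_right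
  have hR2M : R2 ≤ NK S K := he2.le_right
  haveI := finite_of_le hR1M
  haveI := finite_of_le hR2M
  have hcen2 : centralizerIn (NK S K) R2 ≤ R2 := hc.2 R2 (IsoIn.isConj (hle _ he2))
  have hrad2 : (Cfsg.pCore p (Fk.autGroup R2)).map (Fk.autGroup R2).subtype ≤ Cfsg.Inn R2 := fun α hα => by
    have hr : (R2.subtype.comp e2.toMonoidHom).range = R2 := IsoIn.range_eq e2
    revert α hα
    rw [← hr]
    exact fun α hα => mem_inn_of_conj_radical hrad (hle _ he2) hα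
  have he2' : IsoIn Ek e2 := he2
  -- the image of `Y` under `e2` is `C_{R2}(A)`
  obtain ⟨-, -, σ, -, hσ, μ, -, hσμ⟩ := he2
  have hA2 : ∀ a : A, ((e2 (Subgroup.inclusion hAR a) : R2) : Ω) = ((μ a : A) : Ω) := fun a => by
    rw [← hσμ a]
    exact (hσ (Subgroup.inclusion hAR a)).symm
  have hYfix : ∀ a : A, (a : Ω) ∈ Y2 := fun a => by
    obtain ⟨a0, rfl⟩ := μ.surjective a
    have h1 := hval (Subgroup.inclusion hAR a0) (hAY a0.2)
    rw [show g (Subgroup.inclusion hAR a0) = Subgroup.inclusion hAR a0 from Subtype.ext (hgA a0), hA2] at h1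
    exact h1.1 ▸ h1.2
  have hA2R : A ≤ R2 := fun a ha => by
    obtain ⟨a0, ha0⟩ := μ.surjective ⟨a, ha⟩
    have h1 := hA2 a0
    rw [ha0] at h1
    have h2 : ((e2 (Subgroup.inclusion hAR a0) : R2) : Ω) ∈ R2 := SetLike.coe_mem _
    rwa [h1] at h2
  have hY2eq : Y2 = R2 ⊓ Subgroup.centralizer (A : Set Ω) := by
    refine le_antisymm (fun z hz => ?_) fun z hz => ?_
    · obtain ⟨x, hx⟩ := e1.surjective ⟨z, hY21 hz⟩
      have hz' := hfix ⟨z, hY21 hz⟩ hz
      refine ⟨(by have h2 : ((e2 (g (e1.symm ⟨z, hY21 hz⟩)) : R2) : Ω) ∈ R2 := SetLike.coe_mem _; rwa [hz'] at h2), Subgroup.mem_centralizer_iff.2 fun b hb => ?_⟩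
      obtain ⟨b0, hb0⟩ := μ.surjective ⟨b, hb⟩
      set w := g (e1.symm ⟨z, hY21 hz⟩)
      -- `e1.symm z` lies in `Y`
      have hyY : ((e1.symm ⟨z, hY21 hz⟩ : R) : Ω) ∈ Y := by
        have hcard : Nat.card Y = Nat.card Y2 := IsConj.card_eq hconj
        haveI := finite_of_le (hY21.trans hR1M)
        let f : Y → Y2 := fun y => ⟨e1 (Subgroup.inclusion hYR y), (hval _ y.2).2⟩
        haveI := finite_of_le (hYR.trans hRM)
        have hf : Function.Bijective f := (Nat.bijective_iff_injective_and_card f).2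
          ⟨fun a b hab => Subgroup.inclusion_injective hYR (e1.injective (Subtype.ext (congrArg Subtype.val hab :))),
            hcard⟩
        obtain ⟨y, hy⟩ := hf.2 ⟨z, hz⟩
        have : e1 (Subgroup.inclusion hYR y) = ⟨z, hY21 hz⟩ := Subtype.ext (congrArg Subtype.val hy :)
        rw [← this, MulEquiv.symm_apply_apply]
        exact y.2
      have hwY : (w : Ω) ∈ Y := hinvY g hg _ hyY
      have h2 : Subgroup.inclusion hAR b0 * w = w * Subgroup.inclusion hAR b0 :=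
        Subtype.ext (Subgroup.mem_centralizer_iff.1 hwY.2 b0 b0.2)
      have h3 := congrArg (fun t : R => ((e2 t : R2) : Ω)) h2
      simp only [map_mul, Subgroup.coe_mul, hA2, hb0, hz'] at h3
      exact h3
    · obtain ⟨w, hw⟩ := e2.surjective ⟨z, hz.1⟩
      obtain ⟨y, rfl⟩ := g.surjective w
      have hwY : ((g y : R) : Ω) ∈ Y := ⟨(g y).2, Subgroup.mem_centralizer_iff.2 fun b hb => by
        have h1 := hA2 ⟨b, hb⟩
        have h2 : e2 (Subgroup.inclusion hAR ⟨b, hb⟩ * g y) = e2 (g y * Subgroup.inclusion hAR ⟨b, hb⟩) := by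
          rw [map_mul, map_mul, hw]
          refine Subtype.ext ?_
          rw [Subgroup.coe_mul, Subgroup.coe_mul, h1]
          exact Subgroup.mem_centralizer_iff.1 hz.2 _ (μ _).2
        exact congrArg Subtype.val (e2.injective h2)⟩
      have hyY : (y : Ω) ∈ Y := by
        have := hinvY g⁻¹ (inv_mem hg) _ hwY
        rwa [MulAut.inv_apply_self] at this
      obtain ⟨h1, h2⟩ := hval y hyY
      rw [h1, hw] at h2
      exact h2
  have hY22 : Y2 ≤ R2 := hY2eq.trans_le inf_le_left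
  -- `C(Y2) ≤ R2`
  have hinv2 : ∀ a ∈ Fk.autGroup R2, ∀ y : R2, (y : Ω) ∈ Y2 → ((a y : R2) : Ω) ∈ Y2 := by
    intro a ha y hy
    rw [hY2eq] at hy ⊢
    obtain ⟨κ, -, hκ⟩ := kSystem_action hA hA2R hR2M ha
    refine ⟨(a y).2, Subgroup.mem_centralizer_iff.2 fun b hb => ?_⟩
    obtain ⟨b0, hb0⟩ := κ.surjective ⟨b, hb⟩
    have h1 : ((a (Subgroup.inclusion hA2R b0) : R2) : Ω) = b := by rw [hκ, hb0]
    have h2 : Subgroup.inclusion hA2R b0 * y = y * Subgroup.inclusion hA2R b0 :=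
      Subtype.ext (Subgroup.mem_centralizer_iff.1 hy.2 b0 b0.2)
    have h3 := congrArg (fun t : R2 => ((a t : R2) : Ω)) h2
    simp only [map_mul, Subgroup.coe_mul, h1] at h3
    exact h3
  have hCle : centralizerIn (NK S K) Y2 ≤ R2 := by
    refine le_of_absorb hM hR2M inf_le_left ?_ fun w hw hwN => ?_
    · intro r hr
      refine Subgroup.mem_normalizer_iff.2 fun w => ?_
      have key : ∀ r ∈ R2, ∀ w ∈ centralizerIn (NK S K) Y2, r * w * r⁻¹ ∈ centralizerIn (NK S K) Y2 := by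
        intro r hr w hw
        refine ⟨(NK S K).mul_mem ((NK S K).mul_mem (hR2M hr) hw.1) (inv_mem (hR2M hr)),
          Subgroup.mem_centralizer_iff.2 fun y hy => ?_⟩
        have h1 := Subgroup.mem_centralizer_iff.1 hw.2 _ (conj_inv_mem_of_normalizer (hN2 hr) hy)
        calc y * (r * w * r⁻¹) = r * (r⁻¹ * y * r * w) * r⁻¹ := by group
          _ = r * (w * (r⁻¹ * y * r)) * r⁻¹ := by rw [h1]
          _ = r * w * r⁻¹ * y := by group
      refine ⟨key r hr w, fun hw => ?_⟩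
      simpa [mul_assoc] using key r⁻¹ (R2.inv_mem hr) _ hw
    · refine mem_of_stab hM hcen2 hR2M hrad2 hY22 hinv2 hw.1 hwN (fun y hy => ?_) fun x hx => ?_
      · rw [← Subgroup.mem_centralizer_iff.1 hw.2 y hy, mul_inv_cancel_right]
      · rw [hY2eq]
        refine ⟨R2.mul_mem (R2.inv_mem hx) (conj_mem_of_normalizer hwN hx), Subgroup.mem_centralizer_iff.2 fun b hb => ?_⟩
        have hyY2 := conj_mem_of_normalizer (hN2 hx) (hYfix ⟨b, hb⟩)
        have hwb := Subgroup.mem_centralizer_iff.1 hw.2 b (hYfix ⟨b, hb⟩)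
        have hwy := Subgroup.mem_centralizer_iff.1 hw.2 _ hyY2
        calc b * (x⁻¹ * (w * x * w⁻¹)) = x⁻¹ * (x * b * x⁻¹ * w) * x * w⁻¹ := by group
          _ = x⁻¹ * (w * (x * b * x⁻¹)) * x * w⁻¹ := by rw [hwy]
          _ = x⁻¹ * w * x * (b * w⁻¹) := by group
          _ = x⁻¹ * w * x * (w⁻¹ * (w * b) * w⁻¹) := by group
          _ = x⁻¹ * (w * x * w⁻¹) * b := by rw [← hwb]; group
  -- `R1 = R2`
  have hkey : ∀ x : R1, ((e2 (g (e1.symm x)) : R2) : Ω)⁻¹ * x ∈ centralizerIn (NK S K) Y2 := by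
    intro x
    refine ⟨(NK S K).mul_mem (inv_mem (hR2M (e2 _).2)) (hR1M x.2), Subgroup.mem_centralizer_iff.2 fun y hy => ?_⟩
    have hxy := conj_mem_of_normalizer (hN1 x.2) hy
    have h1 := hfix (x * ⟨y, hY21 hy⟩ * x⁻¹) hxy
    rw [map_mul, map_mul, map_inv, map_mul, map_mul, map_inv, map_mul, map_mul, map_inv, Subgroup.coe_mul,
      Subgroup.coe_mul, InvMemClass.coe_inv, hfix ⟨y, hY21 hy⟩ hy] at h1
    set c := ((e2 (g (e1.symm x)) : R2) : Ω)
    calc y * (c⁻¹ * x) = c⁻¹ * (c * y * c⁻¹) * x := by group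
      _ = c⁻¹ * ((x : Ω) * y * (x : Ω)⁻¹) * x := by rw [h1]; rfl
      _ = c⁻¹ * x * y := by group
  have h12 : R1 ≤ R2 := fun x hx => by
    have := R2.mul_mem (e2 (g (e1.symm ⟨x, hx⟩))).2 (hCle (hkey ⟨x, hx⟩))
    rwa [mul_inv_cancel_left] at this
  obtain rfl : R1 = R2 := Subgroup.eq_of_le_of_card_ge h12
    (Nat.card_congr (e1.symm.trans e2).toEquiv).ge
  have hinn : e1.symm.trans (g.trans e2) ∈ Cfsg.Inn R1 := by
    refine mem_inn_of_stab hM hR1M hrad2 hY22 hinv2 ((mem_autGroup hR1M).2 hφ0) (fun y hy => Subtype.ext (hfix y hy))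
      fun x => ?_
    rw [hY2eq]
    refine ⟨SetLike.coe_mem _, Subgroup.mem_centralizer_iff.2 fun b hb => ?_⟩
    have h1 := Subgroup.mem_centralizer_iff.1 (hkey x).2 b (hYfix ⟨b, hb⟩)
    show b * ((x : Ω)⁻¹ * ((e2 (g (e1.symm x)) : R1) : Ω)) = (x : Ω)⁻¹ * ((e2 (g (e1.symm x)) : R1) : Ω) * b
    set c := ((e2 (g (e1.symm x)) : R1) : Ω)
    calc b * ((x : Ω)⁻¹ * c) = (x : Ω)⁻¹ * c * (c⁻¹ * x * b) * ((x : Ω)⁻¹ * c) := by group
      _ = (x : Ω)⁻¹ * c * (b * (c⁻¹ * x)) * ((x : Ω)⁻¹ * c) := by rw [h1]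
      _ = (x : Ω)⁻¹ * c * b := by group
  have hφE : IsoIn Ek (e1.symm.trans (g.trans e2)) := (mem_autGroup hR1M).1 (inn_le_autGroup hR1M hinn)
  refine (mem_autGroup hRM).2 (mem_of_eq (he1.trans (hφE.trans he2'.symm)) fun x => ?_)
  show ((g x : R) : Ω) = ((e2.symm (e2 (g (e1.symm (e1 x)))) : R) : Ω)
  rw [MulEquiv.symm_apply_apply, MulEquiv.symm_apply_apply]

/-- Centralizer systems agree. -/
theorem RelData.claim (d : RelData p E F H) : ∀ (A : Subgroup Ω), A ≤ S → A ≤ H → Small p A → Claim E F A := by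
  intro A hA hAH h
  obtain ⟨k, hk⟩ : ∃ k, Nat.card S - Nat.card A = k := ⟨_, rfl⟩
  induction k using Nat.strong_induction_on generalizing A with
  | _ k ih =>
  intro P φ hφ hAP hPC hfix
  refine d.reduce hA hAH h (K := ⊥) IsPGroup.of_bot ?_ hφ hAP hfix
    fun x hx => ⟨1, one_mem _, fun a => by
      rw [← Subgroup.mem_centralizer_iff.1 (hPC hx).2 a a.2, mul_inv_cancel_right]; rfl⟩
  intro A' hA' e hA'H hs' _ hfull
  rw [Subgroup.map_bot] at hfull ⊢
  set K : Subgroup (MulAut A') := ⊥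
  have hcard : Nat.card A' = Nat.card A := Nat.card_congr e.symm.toEquiv
  have hNS : NK S K ≤ S := (NK_le_normalizerIn K).trans inf_le_left
  haveI : Finite (NK S K) := finite_of_le hNS
  have hM : IsPGroup p (NK S K) := d.hS.to_le hNS
  have hFk := isSaturated_of_isKSystem p d.hS d.hF hfull rfl _ (isKSystem_kSystem F hA' K)
  have hEk := isSaturated_of_isKSystem p d.hS d.hE (d.fullK hA'H hs' hfull) rfl _ (isKSystem_kSystem E hA' K)
  have hle := kSystem_mono (K := K) d.le hA'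
  refine le_of_centricRadical hM hFk _ fun R hn hc _ => ?_
  have hRM : R ≤ NK S K := hc.1
  have hMC : ∀ x ∈ NK S K, ∀ a ∈ A', a * x = x * a := fun x hx a ha => by
    obtain ⟨-, κ, hκ, hκx⟩ := mem_NK.1 hx
    have h1 := hκx ⟨a, ha⟩
    rw [Subgroup.mem_bot.1 hκ] at h1
    exact eq_mul_inv_iff_mul_eq.1 h1
  have hAR : A' ≤ R := fun a ha => hc.2 R (CfsgLib.Fusion.IsConj.refl hRM) ⟨le_NK_centralizer hA' hs'.1 K ha,
    Subgroup.mem_centralizer_iff.2 fun r hr => (hMC r (hRM hr) a ha).symm⟩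
  haveI := finite_of_le hRM
  haveI := finite_mulAut hRM
  obtain ⟨-, T, hT⟩ := fullyAutomized_of_fullyNormalized hM hFk hn
  suffices hB : ((kSystem E hA' K).autGroup R).subgroupOf ((kSystem F hA' K).autGroup R) = ⊤ from
    Subgroup.subgroupOf_eq_top.1 hB
  refine le_of_coprime T (hT.le.trans (Subgroup.comap_mono (autInducedBy_le_autGroup hRM))) ?_
  rintro ⟨g, hg⟩ hco
  rw [Subgroup.orderOf_mk] at hco
  show g ∈ (kSystem E hA' K).autGroup R
  have hgFR : g ∈ F.autGroup R := (mem_autGroup (hRM.trans hNS)).2 (kSystem_hom hA' ((mem_autGroup hRM).1 hg))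
  have hnM : (H.subgroupOf R).Normal := ⟨fun x hx r =>
    d.hH.2 (R ⊓ H) inf_le_right _ (F.conj_mem (inf_le_left.trans (hRM.trans hNS)) (hNS (hRM r.2)))
      ⟨(x : Ω), x.2, hx⟩⟩
  obtain ⟨A1, hA1n, hZA1, hA1H, hA1s, hdet⟩ := exists_detecting_in (p := p) (hM.to_le hRM) (H.subgroupOf R) hnM
    (Z := A'.subgroupOf R)
    (fun z hz => Subgroup.mem_center_iff.2 fun r => Subtype.ext (hMC r (hRM r.2) z hz).symm)
    ⟨fun a ha b hb => Subtype.ext (hs'.1 a ha b hb), fun a ha => Subtype.ext (by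
      rw [SubmonoidClass.coe_pow]; exact hs'.2 a ha)⟩ (fun z hz => hA'H hz)
  have hgH : ∀ x ∈ H.subgroupOf R, g x ∈ H.subgroupOf R := fun x hx => by
    have h1 : (x : Ω) * ((x : Ω)⁻¹ * ((g x : R) : Ω)) ∈ H := H.mul_mem hx (d.diff_mem (hRM.trans hNS) hgFR hco x)
    rw [mul_inv_cancel_left] at h1
    exact h1
  set Y := A1.map R.subtype
  have hYR : Y ≤ R := Subgroup.map_subtype_le A1
  have hAY : A' ≤ Y := fun a ha => ⟨⟨a, hAR ha⟩, hZA1 ha, rfl⟩
  have hgA := fixes_of_coprime hA' hAR hRM IsPGroup.of_bot hg hco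
  have hgF : R.subtype.comp g.toMonoidHom ∈ F.Hom R := kSystem_hom hA' ((mem_autGroup hRM).1 hg)
  by_cases hYA : Y ≤ A'
  · have hfixH := hdet g hco hgH fun a ha => Subtype.ext (hgA ⟨a, hYA ⟨a, ha, rfl⟩⟩)
    rw [show g = 1 from MulEquiv.ext fun x => apply_eq_of_diff_fixed (hM.to_le hRM) hco
      (hfixH _ (d.diff_mem (hRM.trans hNS) hgFR hco x))]
    exact one_mem _
  have hYH : Y ≤ H := by rintro _ ⟨a, ha, rfl⟩; exact hA1H ha
  have hYS : Y ≤ S := hYR.trans (hRM.trans hNS)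
  have hYs : Small p Y := by
    refine ⟨?_, ?_⟩
    · rintro _ ⟨a, ha, rfl⟩ _ ⟨b, hb, rfl⟩
      exact congrArg R.subtype (hA1s.1 a ha b hb)
    · rintro _ ⟨a, ha, rfl⟩
      rw [← map_pow, hA1s.2 a ha, map_one]
  have hgY : (R.subtype.comp g.toMonoidHom).comp (Subgroup.inclusion hYR) ∈ (kSystem E hA' K).Hom Y :=
    kSystem_mem hA' (hYR.trans hRM) (fun y => hRM (g _).2) hAY (d.same Y hYH hYs (restrict hgF hYR)) (one_mem K)
      fun a => hgA a
  have hYn : R ≤ Subgroup.normalizer (Y : Set Ω) := by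
    have key : ∀ r ∈ R, ∀ z ∈ Y, r * z * r⁻¹ ∈ Y := by
      rintro r hr _ ⟨a, ha, rfl⟩
      exact ⟨_, hA1n.conj_mem a ha ⟨r, hr⟩, rfl⟩
    intro r hr
    refine Subgroup.mem_normalizer_iff.2 fun z => ⟨key r hr z, fun hz => ?_⟩
    simpa [mul_assoc] using key r⁻¹ (R.inv_mem hr) _ hz
  obtain ⟨R1, R2, Y2, e1, e2, he1, he2, hY21, hN1, -, hconj, hφ0, hfix', -⟩ :=
    exists_transport hM hEk hg hle hRM hYR hYn hgY
  have hR1S : R1 ≤ S := he1.le_right.trans hNS
  have hY2S : Y2 ≤ S := hY21.trans hR1S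
  haveI := finite_of_le hYS
  haveI := finite_of_le hY2S
  obtain ⟨ω, hω, hωr⟩ := hconj
  have hY2H : Y2 ≤ H := d.image_le hYH (e := isoOfHom ((kSystem E hA' K).injective_of_mem hω) hωr)
    (d.le _ (kSystem_hom hA' (isoIn_isoOfHom hω hωr)))
  have hY2s : Small p Y2 := small_of_iso hYs (isoOfHom ((kSystem E hA' K).injective_of_mem hω) hωr)
  have hlt : Nat.card S - Nat.card Y2 < k := by
    rw [← IsConj.card_eq (F := kSystem E hA' K) ⟨ω, hω, hωr⟩, ← hk, ← hcard]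
    have h1 : Nat.card A' < Nat.card Y := lt_of_le_of_ne (Subgroup.card_le_of_le hAY)
      fun e => hYA (Subgroup.eq_of_le_of_card_ge hAY e.ge).ge
    have h2 : Nat.card Y ≤ Nat.card S := Subgroup.card_le_of_le hYS
    omega
  have hφE : IsoIn E (e1.symm.trans (g.trans e2)) := by
    refine d.reduce hY2S hY2H hY2s (K := autInducedBy R1 Y2) ((isPGroup_autInducedBy p (d.hS.to_le hR1S) Y2)) ?_
      (kSystem_hom hA' hφ0) hY21 (fun x hx => hfix' x hx) fun x hx =>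
        ⟨conjAut Y2 R1 ⟨x, hx, hN1 hx⟩, range_conjAut (P := Y2) R1 ▸ ⟨_, rfl⟩, fun a => rfl⟩
    intro A'' hA'' e' hA''H hs'' _ hfull''
    refine d.kSystem_le hA'' hA''H hs'' ((isPGroup_autInducedBy p (d.hS.to_le hR1S) Y2).map _) hfull'' ?_
    exact ih _ hlt A'' hA'' hA''H hs'' (by rw [show Nat.card A'' = Nat.card Y2 from Nat.card_congr e'.symm.toEquiv])
  refine (mem_autGroup hRM).2 (kSystem_mem hA' hRM (fun x => hRM (g x).2) hAR ?_ (one_mem K) fun a => hgA a)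
  refine mem_of_eq ((show IsoIn E e1 from kSystem_hom hA' he1).trans
    (hφE.trans (show IsoIn E e2 from kSystem_hom hA' he2).symm)) fun x => ?_
  show ((g x : R) : Ω) = ((e2.symm (e2 (g (e1.symm (e1 x)))) : R) : Ω)
  rw [MulEquiv.symm_apply_apply, MulEquiv.symm_apply_apply]

/-- Equality. -/
theorem RelData.eq (d : RelData p E F H) : ∀ P : Subgroup Ω, E.Hom P = F.Hom P := fun P =>
  Set.Subset.antisymm (d.le P) fun φ hφ =>
    d.claim ⊥ bot_le bot_le ⟨fun a ha b hb => by rw [Subgroup.mem_bot.1 ha, Subgroup.mem_bot.1 hb],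
      fun a ha => by rw [Subgroup.mem_bot.1 ha, one_pow]⟩ P φ hφ bot_le
      (fun x hx => ⟨le_of_hom hφ hx, Subgroup.mem_centralizer_iff.2 fun a ha => by
        rw [Subgroup.mem_bot.1 ha, one_mul, mul_one]⟩)
      fun x hx => by
        rw [show x = 1 from Subtype.ext (Subgroup.mem_bot.1 hx), map_one]; rfl

end CfsgLib.SmallControlRel
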